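import Cfsg.Agent.R2.T1.N7.PB.Dat

/-!
# S5929, `n = 7`, `p = 3`, lift, pattern B: modules with an `L₂(7)`-fixed vector (helper7)

* `act` : the words act on the 15 translates of a vector fixed by `s2`, `s3`;
* `ker0` : `∑ w i • ρ (tt i) m = 0` implies `m = 0`;
* `const` : a relation between the translates of two independent vectors is constant.
-/

set_option autoImplicit false

namespace Cfsg.Agent.R2.T1.N7.PB

open Module

universe u v

section coef
variable {F : Type u} [Field F] {M : Type v} [AddCommGroup M] [Module F M]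

theorem cast_eq (h3 : (3 : F) = 0) {a b : ℤ} (h : (a - b) % 3 = 0) : (a : F) = b := by
  obtain ⟨c, hc⟩ := Int.dvd_of_emod_eq_zero h
  have h1 : a = b + 3 * c := by linarith
  rw [h1]
  push_cast
  rw [h3, zero_mul, add_zero]

/-- combination along a map of index types -/
theorem sum_comb {κ : Type} [Fintype κ] (c : κ → ℤ) (p : κ → Fin 15) (f : Fin 15 → M) :
    ∑ k, (c k : F) • f (p k) = ∑ i, (((∑ k, if p k = i then c k else 0 : ℤ)) : F) • f i := by
  have h : ∀ k, (c k : F) • f (p k) = ∑ i, (((if p k = i then c k else 0 : ℤ)) : F) • f i := by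
    intro k
    rw [Finset.sum_eq_single (p k)]
    · rw [if_pos rfl]
    · intro i _ hi
      rw [if_neg (fun h => hi h.symm), Int.cast_zero, zero_smul]
    · intro h
      exact absurd (Finset.mem_univ _) h
  rw [Finset.sum_congr rfl fun k _ => h k, Finset.sum_comm]
  refine Finset.sum_congr rfl fun i _ => ?_
  rw [← Finset.sum_smul, Int.cast_sum]

/-- the translates of `w` span the zero-sum vectors -/
theorem span_id (h3 : (3 : F) = 0) (f : Fin 15 → M) (j : Fin 15) :
    ∑ k, (CC j k : F) • ∑ i, (bas k i : F) • f i = f 0 - f j := by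
  have h1 : ∑ k, (CC j k : F) • ∑ i, (bas k i : F) • f i = ∑ i, ((∑ k, CC j k * bas k i : ℤ) : F) • f i := by
    rw [Finset.sum_congr rfl fun k _ => Finset.smul_sum, Finset.sum_comm]
    refine Finset.sum_congr rfl fun i _ => ?_
    rw [Int.cast_sum, Finset.sum_smul]
    refine Finset.sum_congr rfl fun k _ => ?_
    rw [smul_smul, Int.cast_mul]
  rw [h1]
  have h2 : ∀ i, ((∑ k, CC j k * bas k i : ℤ) : F) • f i =
      (if i = 0 then (1 : F) else 0) • f i - (if i = j then (1 : F) else 0) • f i := by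
    intro i
    rw [← sub_smul, cast_eq h3 (c_bas j i), Int.cast_sub, Int.cast_ite, Int.cast_ite, Int.cast_one, Int.cast_zero]
  rw [Finset.sum_congr rfl fun i _ => h2 i, Finset.sum_sub_distrib]
  simp

theorem const_of (h3 : (3 : F) = 0) {f : Fin 15 → M} (h : ∀ k, ∑ i, (bas k i : F) • f i = 0) (j : Fin 15) :
    f j = f 0 := by
  have h1 := span_id h3 f j
  rw [Finset.sum_congr rfl fun k _ => by rw [h k, smul_zero], Finset.sum_const_zero] at h1
  exact (sub_eq_zero.1 h1.symm).symm

end coef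

section perm

theorem pw_append (l l' : List (Fin 4)) (i : Fin 15) : pw (l ++ l') i = pw l (pw l' i) := by
  unfold pw
  rw [List.foldr_append]

theorem pw_ivw (l : List (Fin 4)) : ∀ i, pw (ivw l) (pw l i) = i := by
  induction l with
  | nil => intro i; rfl
  | cons k l ih =>
    intro i
    have h1 : ivw (k :: l) = ivw l ++ [![1, 0, 3, 2] k] := by
      unfold ivw
      rw [List.map_cons, List.reverse_cons]
    rw [h1, pw_append, pw_cons, pw_cons, pw_nil]
    have h2 : ft (![1, 0, 3, 2] k) (ft k (pw l i)) = pw l i := by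
      generalize pw l i = j
      obtain ⟨e1, e2, e3, e4⟩ := ft_inv j
      clear h1 ih
      fin_cases k
      · exact e2
      · exact e1
      · exact e4
      · exact e3
    rw [h2, ih]

theorem pw_inj (l : List (Fin 4)) : Function.Injective (pw l) :=
  Function.LeftInverse.injective (pw_ivw l)

theorem pw_bij (l : List (Fin 4)) : Function.Bijective (pw l) :=
  Finite.injective_iff_bijective.1 (pw_inj l)

theorem sum_pw {M : Type v} [AddCommMonoid M] (l : List (Fin 4)) (f : Fin 15 → M) : ∑ i, f (pw l i) = ∑ i, f i :=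
  (pw_bij l).sum_comp f

theorem pw_ivw' (l : List (Fin 4)) (i : Fin 15) : pw l (pw (ivw l) i) = i := by
  obtain ⟨j, rfl⟩ := (pw_bij l).2 i
  rw [pw_ivw]

end perm

section mod
variable {F : Type u} [Field F] {W : Type v} [AddCommGroup W] [Module F W] {ρ : Representation F A7 W}

theorem rho_mul (g h : A7) (v : W) : ρ (g * h) v = ρ g (ρ h v) := by rw [map_mul]; rfl

theorem rho_inv {g : A7} {v v' : W} (h : ρ g v = v') : ρ g⁻¹ v' = v := by
  rw [← h, ← rho_mul, inv_mul_cancel, map_one]; rfl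

/-- fixed by the closure -/
theorem fix_clo {x y : A7} {m : W} (hx : ρ x m = m) (hy : ρ y m = m) {g : A7} (hg : g ∈ Subgroup.closure {x, y}) :
    ρ g m = m := by
  induction hg using Subgroup.closure_induction with
  | mem z hz =>
    rcases hz with rfl | rfl
    · exact hx
    · exact hy
  | one => rw [map_one]; rfl
  | mul a b _ _ ha hb => rw [rho_mul, hb, ha]
  | inv a _ ha => exact rho_inv ha

theorem zero_of_fix (h0 : Representation.invariants ρ = ⊥) {m : W} (ha : ρ a7 m = m) (hb : ρ b7 m = m) : m = 0 := by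
  have h1 : m ∈ Representation.invariants ρ := by
    intro g
    exact fix_clo ha hb (by rw [gen_ab]; exact Subgroup.mem_top g)
  rw [h0] at h1
  exact (Submodule.mem_bot F).1 h1

variable (ρ) in
/-- fixed by `L₂(7)` -/
def Fx (m : W) : Prop := ρ s2 m = m ∧ ρ s3 m = m

theorem Fx.evw {m : W} (h : Fx ρ m) (l : List (Fin 4)) : ρ (evw s2 s3 l) m = m :=
  fix_clo h.1 h.2 (evw_mem (Subgroup.subset_closure (by simp)) (Subgroup.subset_closure (by simp)) l)

theorem act1 {m : W} (h : Fx ρ m) (k : Fin 4) (i : Fin 15) : ρ (lt a7 b7 k) (ρ (tt i) m) = ρ (tt (ft k i)) m := by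
  have ha : ∀ i, ρ a7 (ρ (tt i) m) = ρ (tt (ft 0 i)) m := fun i => by rw [← rho_mul, a_tt]
  have hb : ∀ i, ρ b7 (ρ (tt i) m) = ρ (tt (ft 2 i)) m := fun i => by rw [← rho_mul, b_tt, rho_mul, h.evw]
  fin_cases k
  · exact ha i
  · refine rho_inv ?_
    have h1 := ha (ft 1 i)
    rw [(ft_inv i).1] at h1
    exact h1
  · exact hb i
  · refine rho_inv ?_
    have h1 := hb (ft 3 i)
    rw [(ft_inv i).2.2.1] at h1
    exact h1

/-- the action of the words -/
theorem act {m : W} (h : Fx ρ m) (l : List (Fin 4)) (i : Fin 15) : ρ (evw a7 b7 l) (ρ (tt i) m) = ρ (tt (pw l i)) m := by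
  induction l with
  | nil =>
    show ρ 1 _ = _
    rw [map_one]; rfl
  | cons k l ih =>
    show ρ (lt a7 b7 k * PB.evw a7 b7 l) _ = _
    rw [rho_mul, ih, act1 h, pw_cons]

variable (ρ) in
/-- the eigenvector in the span of the translates -/
def Z (m : W) : W := ∑ i, (w i : F) • ρ (tt i) m

theorem Z_add (a b : F) (m m' : W) : Z ρ (a • m + b • m') = a • Z ρ m + b • Z ρ m' := by
  unfold Z
  rw [Finset.smul_sum, Finset.smul_sum, ← Finset.sum_add_distrib]
  refine Finset.sum_congr rfl fun i _ => ?_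
  rw [map_add, map_smul, map_smul, smul_add, smul_comm a, smul_comm b]

/-- the translates of `Z` -/
theorem Z_tr {m : W} (h : Fx ρ m) (k : Fin 14) : ρ (evw a7 b7 (ws k)) (Z ρ m) = ∑ i, (bas k i : F) • ρ (tt i) m := by
  unfold Z
  rw [map_sum, ← sum_pw (ws k) (fun i => (bas k i : F) • ρ (tt i) m)]
  refine Finset.sum_congr rfl fun i _ => ?_
  rw [map_smul, act h, bas_pw]

theorem ker0 (h3 : (3 : F) = 0) (h0 : Representation.invariants ρ = ⊥) {m : W} (h : Fx ρ m) (hz : Z ρ m = 0) : m = 0 := by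
  have h1 : ∀ j, ρ (tt j) m = ρ (tt 0) m := const_of h3 (f := fun i => ρ (tt i) m) fun k => by
    rw [← Z_tr h k, hz, map_zero]
  have h2 : ρ (tt 0) m = 0 := by
    refine zero_of_fix h0 ?_ ?_
    · exact (act1 h 0 0).trans (h1 _)
    · exact (act1 h 2 0).trans (h1 _)
  have h4 : ρ (tt 0) m = m := by
    show ρ 1 m = m
    rw [map_one]; rfl
  rw [← h4, h2]

/-- the `(D₈, λ)`-projection -/
theorem proj (h3 : (3 : F) = 0) {m : W} (h : Fx ρ m) (j : Fin 15) :
    ∑ k, (es8 k : F) • ρ (evw a7 b7 (gw k)) (ρ (tt j) m) = (w j : F) • Z ρ m := by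
  rw [Finset.sum_congr rfl fun k _ => by rw [act h (gw k) j], sum_comb es8 (fun k => pw (gw k) j) fun i => ρ (tt i) m]
  unfold Z
  rw [Finset.smul_sum]
  refine Finset.sum_congr rfl fun i _ => ?_
  rw [cast_eq h3 (e_w i j), smul_smul, Int.cast_mul]

/-- a relation between the translates of two vectors -/
theorem rel (h3 : (3 : F) = 0) {m m' : W} (h : Fx ρ m) (h' : Fx ρ m') {f f' : Fin 15 → F}
    (hr : ∑ i, f i • ρ (tt i) m + ∑ i, f' i • ρ (tt i) m' = 0) (k : Fin 14) :
    (∑ i, (bas k i : F) * f i) • Z ρ m + (∑ i, (bas k i : F) * f' i) • Z ρ m' = 0 := by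
  have e1 : ∀ {f : Fin 15 → F} {m : W}, Fx ρ m → ∑ t, (es8 t : F) • ρ (evw a7 b7 (gw t))
      (ρ (evw a7 b7 (ivw (ws k))) (∑ i, f i • ρ (tt i) m)) = (∑ i, (bas k i : F) * f i) • Z ρ m := by
    intro f m h
    rw [Finset.sum_smul]
    have e2 : ∀ t, (es8 t : F) • ρ (PB.evw a7 b7 (gw t)) (ρ (PB.evw a7 b7 (ivw (ws k))) (∑ i, f i • ρ (tt i) m)) =
        ∑ i, f i • (es8 t : F) • ρ (PB.evw a7 b7 (gw t)) (ρ (tt (pw (ivw (ws k)) i)) m) := by
      intro t
      rw [map_sum, map_sum, Finset.smul_sum]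
      refine Finset.sum_congr rfl fun i _ => ?_
      rw [map_smul, map_smul, act h, smul_comm]
    rw [Finset.sum_congr rfl fun t _ => e2 t, Finset.sum_comm]
    refine Finset.sum_congr rfl fun i _ => ?_
    rw [← Finset.smul_sum, proj h3 h, smul_smul, bas_ivw, mul_comm]
  rw [← e1 h, ← e1 h', ← Finset.sum_add_distrib]
  refine Finset.sum_eq_zero fun t _ => ?_
  rw [← smul_add, ← map_add, ← map_add, hr, map_zero, map_zero, smul_zero]

/-- **a relation between the translates of two independent vectors is constant** -/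
theorem rel_const (h3 : (3 : F) = 0) (h0 : Representation.invariants ρ = ⊥) {m m' : W} (h : Fx ρ m) (h' : Fx ρ m')
    (hi : ∀ a b : F, a • m + b • m' = 0 → a = 0 ∧ b = 0) {f f' : Fin 15 → F}
    (hr : ∑ i, f i • ρ (tt i) m + ∑ i, f' i • ρ (tt i) m' = 0) : (∀ j, f j = f 0) ∧ ∀ j, f' j = f' 0 := by
  have h1 : ∀ k, (∑ i, (bas k i : F) * f i) = 0 ∧ (∑ i, (bas k i : F) * f' i) = 0 := by
    intro k
    have h2 := rel h3 h h' hr k
    rw [← Z_add] at h2
    refine hi _ _ (ker0 h3 h0 ?_ h2)
    constructor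
    · rw [map_add, map_smul, map_smul, h.1, h'.1]
    · rw [map_add, map_smul, map_smul, h.2, h'.2]
  exact ⟨const_of h3 (f := f) fun k => (h1 k).1, const_of h3 (f := f') fun k => (h1 k).2⟩

end mod

end Cfsg.Agent.R2.T1.N7.PB
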